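import Cfsg.Agent.Lib.Helper60.G23.Data

/-! Checks for the first level (generated). -/

set_option autoImplicit false

namespace Cfsg.Agent.Lib.Helper60.G23

open Cfsg.Agent.Lib.Helper60.Cert
open Cfsg.Agent.Lib.Helper60.G2 (model mulP oneP xL1 xL2)

theorem C1ok_step_8 : allBelow (fun j => chkCAll model C1D (Nat.add 368 j)) 46 = true := by decide +kernel
theorem C1ok_step_9 : allBelow (fun j => chkCAll model C1D (Nat.add 414 j)) 46 = true := by decide +kernel
theorem C1ok_step_10 : allBelow (fun j => chkCAll model C1D (Nat.add 460 j)) 46 = true := by decide +kernel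
theorem C1ok_step_11 : allBelow (fun j => chkCAll model C1D (Nat.add 506 j)) 46 = true := by decide +kernel

end Cfsg.Agent.Lib.Helper60.G23
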