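import Cfsg.Agent.Lib.Helper60.G23.DefF

/-! Fixed point counts for the Sylow 3-subgroup (generated). -/

set_option autoImplicit false

namespace Cfsg.Agent.Lib.Helper60.G23

open Cfsg.Agent.Lib.Helper60.Cert
open Cfsg.Agent.Lib.Helper60.G2 (model mulP oneP xL1 xL2)

theorem ok_S3_0 : allBelow (fun j => chkS3 (Nat.add 0 j)) 26 = true := by decide +kernel
theorem ok_S3_1 : allBelow (fun j => chkS3 (Nat.add 26 j)) 26 = true := by decide +kernel
theorem ok_S3_2 : allBelow (fun j => chkS3 (Nat.add 52 j)) 26 = true := by decide +kernel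
theorem ok_S3_3 : allBelow (fun j => chkS3 (Nat.add 78 j)) 26 = true := by decide +kernel
theorem ok_S3_4 : allBelow (fun j => chkS3 (Nat.add 104 j)) 26 = true := by decide +kernel
theorem ok_S3_5 : allBelow (fun j => chkS3 (Nat.add 130 j)) 26 = true := by decide +kernel
theorem ok_S3_6 : allBelow (fun j => chkS3 (Nat.add 156 j)) 26 = true := by decide +kernel

end Cfsg.Agent.Lib.Helper60.G23
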