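import Cfsg.Agent.Lib.Helper60.G23.DefF

/-! Fixed point counts for the Sylow 3-subgroup (generated). -/

set_option autoImplicit false

namespace Cfsg.Agent.Lib.Helper60.G23

open Cfsg.Agent.Lib.Helper60.Cert
open Cfsg.Agent.Lib.Helper60.G2 (model mulP oneP xL1 xL2)

theorem ok_S3_21 : allBelow (fun j => chkS3 (Nat.add 546 j)) 26 = true := by decide +kernel
theorem ok_S3_22 : allBelow (fun j => chkS3 (Nat.add 572 j)) 26 = true := by decide +kernel
theorem ok_S3_23 : allBelow (fun j => chkS3 (Nat.add 598 j)) 26 = true := by decide +kernel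
theorem ok_S3_24 : allBelow (fun j => chkS3 (Nat.add 624 j)) 26 = true := by decide +kernel
theorem ok_S3_25 : allBelow (fun j => chkS3 (Nat.add 650 j)) 26 = true := by decide +kernel
theorem ok_S3_26 : allBelow (fun j => chkS3 (Nat.add 676 j)) 26 = true := by decide +kernel
theorem ok_S3_27 : allBelow (fun j => chkS3 (Nat.add 702 j)) 26 = true := by decide +kernel

end Cfsg.Agent.Lib.Helper60.G23
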