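import Cfsg.Agent.Lib.Helper60.G23.Data
import Cfsg.Agent.Lib.Helper60.G23.TabU
import Cfsg.Agent.Lib.Helper60.G23.TabS

/-! The checks of fixed point counts (generated). -/

set_option autoImplicit false

namespace Cfsg.Agent.Lib.Helper60.G23

open Cfsg.Agent.Lib.Helper60.Cert
open Cfsg.Agent.Lib.Helper60.G2 (model mulP oneP xL1 xL2)

/-- the fall-back for the prime 13: the second and the third set -/
def fb3 (j : ℕ) : Bool :=
  (!Nat.beq (Nat.mod (cntFix (UT j) ptB 728) 13) 0) || (!Nat.beq (Nat.mod (cntFix (UT j) ptC 5824) 13) 0)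

/-- the decision from the greatest common divisor of the first count and 91 -/
def okG (g j : ℕ) : Bool :=
  match g with
  | 1 => true
  | 13 => fb3 j
  | _ => false

/-- element `j + 1` of the Sylow 3-subgroup: some count is prime to 7, and some count is prime to 13 -/
def chkS3 (j : ℕ) : Bool := okG (Nat.gcd (cntFix (UT (Nat.succ j)) ptA 728) 91) (Nat.succ j)

/-- element `j + 1` of the Sylow 2-subgroup: if it is an involution, its count is prime to 91 -/
def chkS2 (j : ℕ) : Bool :=
  cond (Nat.beq (model.key (mulP (ST (Nat.succ j)) (ST (Nat.succ j)))) (model.key oneP))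
    (Nat.beq (Nat.gcd (cntFix (ST (Nat.succ j)) ptA 728) 91) 1) true

/-- element `j + 1` of the Sylow 7-subgroup: its count on the fourth set is prime to 13 -/
def chkS7 (j : ℕ) : Bool := !Nat.beq (Nat.mod (cntFix (QT (Nat.succ j)) ptD 702) 13) 0


end Cfsg.Agent.Lib.Helper60.G23
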