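import Cfsg.Prelude.Def_ChevG2
import Cfsg.Prelude.Def_ChevWords
import Cfsg.Agent.Lib.Helper60.G23.Data
import Cfsg.Agent.Lib.Helper7.B2S6

/-!
The Chevalley group `G₂(F)` over a field `F` with three elements (14 × 14 matrices) in packed
form: through a ring isomorphism `ZMod 3 ≃+* F` its generators are 24 explicit packed matrices.
-/

set_option autoImplicit false

namespace Cfsg.Agent.Lib.Helper60.G23

open Cfsg Cfsg.Lie Cfsg.Agent.Lib.Helper60.Cert
open Cfsg.Agent.Lib.Helper60.G2 (Mat toMat model mulP oneP xL1 xL2 reG reG_inj reG_x xP reG'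
  reG_reG' toMat_oneP exists_unit_of_inv)

/-- the invertible matrices on the Chevalley basis -/
abbrev GLF (F : Type*) [Field F] := GL chevG2.Idx F

theorem x_eq_xMat {K : Type*} [Field K] (r : Fin chevG2.nroots) (t : K) :
    chevG2.x K r.val t = chevG2.xMat K r t := by
  unfold ChevalleyDatum.x
  rw [dif_pos r.isLt]

theorem gR_ok : allBelow (fun r => Nat.beq (gR r) (xL1 r) && Nat.beq (gR (Nat.add 12 r)) (xL2 r)) 12
    = true := by decide +kernel

theorem gR_one : gR 24 = oneP := by decide +kernel

theorem zmod3_cases : ∀ s : ZMod 3, s = 0 ∨ s = 1 ∨ s = 2 := by decide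

section field

variable {F : Type*} [Field F] (e : ZMod 3 ≃+* F)

/-- the entrywise map back to the prime field -/
def mapE : Matrix chevG2.Idx chevG2.Idx F →* Matrix chevG2.Idx chevG2.Idx (ZMod 3) :=
  (RingHom.mapMatrix (e.symm : F →+* ZMod 3)).toMonoidHom

theorem mapE_apply (M : Matrix chevG2.Idx chevG2.Idx F) :
    mapE e M = M.map (e.symm : F →+* ZMod 3) := rfl

theorem mapE_inj : Function.Injective (mapE e) := by
  intro M N h
  ext i j
  have := congrFun (congrFun h i) j
  simp only [mapE_apply, Matrix.map_apply] at this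
  exact e.symm.injective this

/-- the entrywise map from the prime field -/
def mapE' : Matrix chevG2.Idx chevG2.Idx (ZMod 3) →* Matrix chevG2.Idx chevG2.Idx F :=
  (RingHom.mapMatrix (e : ZMod 3 →+* F)).toMonoidHom

theorem mapE_mapE' (M : Matrix chevG2.Idx chevG2.Idx (ZMod 3)) : mapE e (mapE' e M) = M := by
  ext i j
  simp [mapE, mapE']

/-- the packed-model homomorphism -/
def ψA : GLF F →* Mat := reG.comp ((mapE e).comp (Units.coeHom _))

theorem ψA_inj : Function.Injective (ψA e) :=
  fun _ _ h => Units.ext (mapE_inj e (reG_inj h))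

theorem ψA_val (g : GLF F) : ψA e g = reG (mapE e (g : Matrix chevG2.Idx chevG2.Idx F)) := rfl

theorem mapE_xMat (r : Fin chevG2.nroots) (t : F) :
    mapE e (chevG2.xMat F r t) = chevG2.xMat (ZMod 3) r (e.symm t) := by
  rw [mapE_apply]
  exact (Cfsg.Agent.Lib.Helper7.B2.xMat_map (e.symm : F →+* ZMod 3) chevG2 r t).symm

theorem reG_mapE_xMat (r : Fin chevG2.nroots) (t : F) :
    reG (mapE e (chevG2.xMat F r t)) = toMat (xP r.val (e.symm t)) := by
  rw [mapE_xMat, ← x_eq_xMat]
  exact reG_x r.val r.isLt _

theorem xP_zero (r : ℕ) : xP r 0 = oneP := by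
  unfold xP
  rw [if_pos rfl]

theorem xP_one (r : ℕ) : xP r 1 = xL1 r := by
  unfold xP
  rw [if_neg (by decide), if_pos rfl]

theorem xP_two (r : ℕ) : xP r 2 = xL2 r := by
  unfold xP
  rw [if_neg (by decide), if_neg (by decide)]

theorem gR_lo {r : ℕ} (hr : r < 12) : gR r = xL1 r := by
  have h := allBelow_spec _ _ gR_ok r hr
  simp only [Bool.and_eq_true] at h
  exact Nat.eq_of_beq_eq_true h.1

theorem gR_hi {r : ℕ} (hr : r < 12) : gR (12 + r) = xL2 r := by
  have h := allBelow_spec _ _ gR_ok r hr
  simp only [Bool.and_eq_true] at h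
  exact Nat.eq_of_beq_eq_true h.2

/-- the Chevalley group is generated by the 24 packed matrices (and the identity) -/
theorem group_eq : chevG2.group F = genGrp model (ψA e) gR 25 := by
  unfold ChevalleyDatum.group genGrp
  apply le_antisymm
  · rw [Subgroup.closure_le]
    rintro g ⟨r, t, hg⟩
    have hv : ψA e g = toMat (xP r.val (e.symm t)) := by
      rw [ψA_val, hg]; exact reG_mapE_xMat e r t
    have hr : r.val < 12 := r.isLt
    rcases zmod3_cases (e.symm t) with h0 | h0 | h0
    · refine Subgroup.subset_closure ⟨24, by norm_num, ?_⟩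
      rw [hv, h0, xP_zero]
      exact (congrArg toMat gR_one).symm
    · refine Subgroup.subset_closure ⟨r.val, by omega, ?_⟩
      rw [hv, h0, xP_one]
      exact (congrArg toMat (gR_lo hr)).symm
    · refine Subgroup.subset_closure ⟨12 + r.val, by omega, ?_⟩
      rw [hv, h0, xP_two]
      exact (congrArg toMat (gR_hi hr)).symm
  · rw [Subgroup.closure_le]
    rintro g ⟨l, hl, hg⟩
    have hg' : ψA e g = toMat (gR l) := hg
    rcases Nat.lt_or_ge l 12 with h1 | h1
    · apply Subgroup.subset_closure
      refine ⟨⟨l, h1⟩, e 1, ?_⟩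
      apply mapE_inj e
      apply reG_inj
      rw [← ψA_val, hg', reG_mapE_xMat, e.symm_apply_apply, xP_one, gR_lo h1]
    · rcases Nat.lt_or_ge l 24 with h2 | h2
      · apply Subgroup.subset_closure
        refine ⟨⟨l - 12, by change l - 12 < 12; omega⟩, e 2, ?_⟩
        apply mapE_inj e
        apply reG_inj
        have e4 : gR l = xL2 (l - 12) := by
          have h3 := gR_hi (r := l - 12) (by omega)
          have e3 : 12 + (l - 12) = l := by omega
          rwa [e3] at h3
        rw [← ψA_val, hg', reG_mapE_xMat, e.symm_apply_apply, xP_two, e4]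
      · have h24 : l = 24 := by omega
        subst h24
        have : g = 1 := by
          apply ψA_inj e
          rw [hg', map_one, gR_one]
          exact toMat_oneP
        rw [this]
        exact Subgroup.one_mem _

/-- a unit is the value of an invertible matrix -/
theorem exists_of_unit (u : Matˣ) : ∃ g : GLF F, ψA e g = (u : Mat) := by
  refine ⟨Units.map ((mapE' e).comp reG') u, ?_⟩
  rw [ψA_val]
  change reG (mapE e (mapE' e (reG' (u : Mat)))) = _
  rw [mapE_mapE', reG_reG']

/-- a packed matrix with a packed inverse is the value of an invertible matrix -/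
theorem exists_of_inv {m m' : ℕ} (h1 : model.mulP m m' = model.oneP)
    (h2 : model.mulP m' m = model.oneP) : ∃ g : GLF F, ψA e g = model.toM m := by
  obtain ⟨u, hu⟩ := exists_unit_of_inv (ν := model) h1 h2
  obtain ⟨g, hg⟩ := exists_of_unit e u
  exact ⟨g, hg.trans hu⟩

end field

end Cfsg.Agent.Lib.Helper60.G23
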