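import Cfsg.Agent.Lib.Helper60.G2.Gens

/-!
Packed vectors over `ZMod 3` (base 3 digits) under the packed 14 × 14 matrices, fixed point
counts, keys of columns and the checks used by the generated data for `G₂(3)`.
-/

set_option autoImplicit false

namespace Cfsg.Agent.Lib.Helper60.G23

open Cfsg.Agent.Lib.Helper60.Cert
open Cfsg.Agent.Lib.Helper60.J1 (horner horner_lt horner_digit)
open Cfsg.Agent.Lib.Helper60.G2 (Mat dg dg_eq dg_lt toMat mod_pow_eq_of_digits model mulP oneP)
open scoped Matrix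

theorem allBelow_of (f : ℕ → Bool) (n : ℕ) (h : ∀ j < n, f j = true) : allBelow f n = true := by
  induction n with
  | zero => rfl
  | succ n ih =>
    simp only [allBelow, Bool.and_eq_true]
    exact ⟨h n (Nat.lt_succ_self n), ih (fun j hj => h j (Nat.lt_succ_of_lt hj))⟩

theorem natCast_inj3 {a b : ℕ} (ha : a < 3) (hb : b < 3) (h : ((a : ℕ) : ZMod 3) = (b : ZMod 3)) :
    a = b := by
  have h2 := (ZMod.natCast_eq_natCast_iff' _ _ _).mp h
  rwa [Nat.mod_eq_of_lt ha, Nat.mod_eq_of_lt hb] at h2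

/-! ### vectors -/

abbrev Vec := Fin 14 → ZMod 3

/-- the vector coded by a natural number (base 3 digits) -/
def vec (v : ℕ) : Vec := fun i => ((dg v i.val : ℕ) : ZMod 3)

/-- entry `i` of the product of a packed matrix and a packed vector -/
def rowB (x v i : ℕ) : ℕ :=
  Nat.mod (Nat.add (Nat.add (Nat.add (Nat.add (Nat.add (Nat.add (Nat.add (Nat.add (Nat.add (Nat.add (Nat.add (Nat.add (Nat.add (Nat.mul (dg x (Nat.add (Nat.mul 14 i) 0)) (dg v 0))
    (Nat.mul (dg x (Nat.add (Nat.mul 14 i) 1)) (dg v 1)))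
    (Nat.mul (dg x (Nat.add (Nat.mul 14 i) 2)) (dg v 2)))
    (Nat.mul (dg x (Nat.add (Nat.mul 14 i) 3)) (dg v 3)))
    (Nat.mul (dg x (Nat.add (Nat.mul 14 i) 4)) (dg v 4)))
    (Nat.mul (dg x (Nat.add (Nat.mul 14 i) 5)) (dg v 5)))
    (Nat.mul (dg x (Nat.add (Nat.mul 14 i) 6)) (dg v 6)))
    (Nat.mul (dg x (Nat.add (Nat.mul 14 i) 7)) (dg v 7)))
    (Nat.mul (dg x (Nat.add (Nat.mul 14 i) 8)) (dg v 8)))
    (Nat.mul (dg x (Nat.add (Nat.mul 14 i) 9)) (dg v 9)))
    (Nat.mul (dg x (Nat.add (Nat.mul 14 i) 10)) (dg v 10)))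
    (Nat.mul (dg x (Nat.add (Nat.mul 14 i) 11)) (dg v 11)))
    (Nat.mul (dg x (Nat.add (Nat.mul 14 i) 12)) (dg v 12)))
    (Nat.mul (dg x (Nat.add (Nat.mul 14 i) 13)) (dg v 13))) 3

theorem rowB_eq (x v i : ℕ) : rowB x v i =
    (∑ k ∈ Finset.range 14, dg x (14 * i + k) * dg v k) % 3 := by
  simp only [Finset.sum_range_succ, Finset.sum_range_zero, zero_add]
  rfl

theorem rowB_lt (x v i : ℕ) : rowB x v i < 3 := Nat.mod_lt _ (by norm_num)

theorem mulVec_vec (x v : ℕ) (i : Fin 14) :
    (toMat x *ᵥ vec v) i = ((rowB x v i.val : ℕ) : ZMod 3) := by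
  change ∑ k : Fin 14, toMat x i k * vec v k = _
  have hs : ∑ k : Fin 14, toMat x i k * vec v k =
      ∑ k ∈ Finset.range 14, ((dg x (14 * i.val + k) : ℕ) : ZMod 3) * ((dg v k : ℕ) : ZMod 3) :=
    Fin.sum_univ_eq_sum_range (fun k => ((dg x (14 * i.val + k) : ℕ) : ZMod 3) *
      ((dg v k : ℕ) : ZMod 3)) 14
  rw [hs, rowB_eq, ZMod.natCast_mod]
  push_cast
  rfl

/-- the packed matrix `x` maps the packed vector `v` to `v'` -/
def mapB (x v v' : ℕ) : Bool := allBelow (fun i => Nat.beq (rowB x v i) (dg v' i)) 14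

theorem mapB_iff (x v v' : ℕ) : mapB x v v' = true ↔ toMat x *ᵥ vec v = vec v' := by
  constructor
  · intro h
    funext i
    have h1 := Nat.eq_of_beq_eq_true (allBelow_spec _ _ h i.val i.isLt)
    rw [mulVec_vec, h1]
    rfl
  · intro h
    apply allBelow_of
    intro i hi
    have h1 := congrFun h ⟨i, hi⟩
    rw [mulVec_vec] at h1
    have h2 : rowB x v i = dg v' i := natCast_inj3 (rowB_lt _ _ _) (dg_lt _ _) h1
    rw [h2]
    exact Nat.beq_refl _

theorem vec_inj {u v : ℕ} (hu : u < 3 ^ 14) (hv : v < 3 ^ 14) (h : vec u = vec v) : u = v := by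
  have h1 : u % 3 ^ 14 = v % 3 ^ 14 := by
    apply mod_pow_eq_of_digits
    intro p hp
    have h2 := congrFun h ⟨p, hp⟩
    exact natCast_inj3 (dg_lt u p) (dg_lt v p) h2
  rwa [Nat.mod_eq_of_lt hu, Nat.mod_eq_of_lt hv] at h1

/-! ### counting -/

/-- the number of `j < n` with `f j`, added to `acc` -/
def cntGo (f : ℕ → Bool) : ℕ → ℕ → ℕ
  | 0, acc => acc
  | n + 1, acc => cond (f n) (cntGo f n (Nat.succ acc)) (cntGo f n acc)

/-- the number of `j < n` with `f j` -/
def cnt (f : ℕ → Bool) (n : ℕ) : ℕ := cntGo f n 0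

theorem cntGo_eq (f : ℕ → Bool) (n acc : ℕ) :
    cntGo f n acc = acc + ((Finset.range n).filter (fun i => f i = true)).card := by
  induction n generalizing acc with
  | zero => simp [cntGo]
  | succ n ih =>
    rw [Finset.range_add_one, Finset.filter_insert]
    cases hf : f n
    · simp only [cntGo, hf, cond_false, Bool.false_eq_true, if_false]
      exact ih acc
    · simp only [cntGo, hf, cond_true, if_true]
      rw [ih, Finset.card_insert_of_notMem (by simp)]
      omega

theorem cnt_eq (f : ℕ → Bool) (n : ℕ) :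
    cnt f n = ((Finset.range n).filter (fun i => f i = true)).card := by
  rw [cnt, cntGo_eq, zero_add]

/-- the number of fixed points of the packed matrix `x` among `pt 0, ..., pt (n-1)` -/
def cntFix (x : ℕ) (pt : ℕ → ℕ) (n : ℕ) : ℕ := cnt (fun i => mapB x (pt i) (pt i)) n

/-! ### keys of columns -/

/-- the key of column `c` -/
def colK (c x : ℕ) : ℕ :=
  Nat.add (dg x (Nat.add 0 c)) (Nat.mul 3 (Nat.add (dg x (Nat.add 14 c)) (Nat.mul 3 (Nat.add (dg x (Nat.add 28 c)) (Nat.mul 3 (Nat.add (dg x (Nat.add 42 c)) (Nat.mul 3 (Nat.add (dg x (Nat.add 56 c)) (Nat.mul 3 (Nat.add (dg x (Nat.add 70 c)) (Nat.mul 3 (Nat.add (dg x (Nat.add 84 c)) (Nat.mul 3 (Nat.add (dg x (Nat.add 98 c)) (Nat.mul 3 (Nat.add (dg x (Nat.add 112 c)) (Nat.mul 3 (Nat.add (dg x (Nat.add 126 c)) (Nat.mul 3 (Nat.add (dg x (Nat.add 140 c)) (Nat.mul 3 (Nat.add (dg x (Nat.add 154 c)) (Nat.mul 3 (Nat.add (dg x (Nat.add 168 c)) (Nat.mul 3 (dg x (Nat.add 182 c)))))))))))))))))))))))))))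

theorem colK_eq (c x : ℕ) : colK c x = horner 3 [dg x (0 + c), dg x (14 + c), dg x (28 + c), dg x (42 + c), dg x (56 + c), dg x (70 + c), dg x (84 + c), dg x (98 + c), dg x (112 + c), dg x (126 + c), dg x (140 + c), dg x (154 + c), dg x (168 + c), dg x (182 + c)] := by
  simp only [horner, mul_zero, add_zero]
  rfl

theorem colK_digit (c x r : ℕ) (hr : r < 14) : colK c x / 3 ^ r % 3 = dg x (14 * r + c) := by
  rw [colK_eq, horner_digit]
  · interval_cases r <;> simp only [List.getD_cons_succ, List.getD_cons_zero]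
  · intro d hd
    simp only [List.mem_cons, List.not_mem_nil, or_false] at hd
    rcases hd with h | h | h | h | h | h | h | h | h | h | h | h | h | h <;> (rw [h]; exact dg_lt _ _)

/-- column `c` of a matrix -/
def colA (c : Fin 14) (M : Mat) : Fin 14 → ZMod 3 := fun r => M r c

theorem colA_of_colK (c : Fin 14) (a b : ℕ) (h : colK c.val a = colK c.val b) :
    colA c (toMat a) = colA c (toMat b) := by
  funext r
  have h1 : dg a (14 * r.val + c.val) = dg b (14 * r.val + c.val) := by
    rw [← colK_digit c.val a r.val r.isLt, ← colK_digit c.val b r.val r.isLt, h]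
  simp only [colA, toMat, Matrix.of_apply]
  rw [h1]

theorem colK_of_colA (c : Fin 14) (a b : ℕ) (h : colA c (toMat a) = colA c (toMat b)) :
    colK c.val a = colK c.val b := by
  have e : ∀ r < 14, dg a (14 * r + c.val) = dg b (14 * r + c.val) := by
    intro r hr
    have h2 := congrFun h ⟨r, hr⟩
    simp only [colA, toMat, Matrix.of_apply] at h2
    exact natCast_inj3 (dg_lt _ _) (dg_lt _ _) h2
  rw [colK_eq, colK_eq]
  have e0 := e 0 (by norm_num)
  have e1 := e 1 (by norm_num)
  have e2 := e 2 (by norm_num)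
  have e3 := e 3 (by norm_num)
  have e4 := e 4 (by norm_num)
  have e5 := e 5 (by norm_num)
  have e6 := e 6 (by norm_num)
  have e7 := e 7 (by norm_num)
  have e8 := e 8 (by norm_num)
  have e9 := e 9 (by norm_num)
  have e10 := e 10 (by norm_num)
  have e11 := e 11 (by norm_num)
  have e12 := e 12 (by norm_num)
  have e13 := e 13 (by norm_num)
  norm_num at e0 e1 e2 e3 e4 e5 e6 e7 e8 e9 e10 e11 e12 e13
  simp only [zero_add]
  rw [e0, e1, e2, e3, e4, e5, e6, e7, e8, e9, e10, e11, e12, e13]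

theorem colA_mul (c : Fin 14) (A B : Mat) (h : colA c B = colA c 1) :
    colA c (A * B) = colA c A := by
  funext r
  have hB : ∀ k, B k c = (1 : Mat) k c := fun k => congrFun h k
  simp only [colA, Matrix.mul_apply]
  rw [Finset.sum_congr rfl (fun k _ => by rw [hB k])]
  simp [Matrix.one_apply]

/-- injectivity through a sorting permutation of keys -/
theorem inj_of_sorted_key (key : ℕ → ℕ) (N : ℕ) (ord pos : ℕ → ℕ)
    (hpos : ∀ j < N, pos j < N ∧ ord (pos j) = j)
    (hlt : ∀ k, k + 1 < N → key (ord k) < key (ord (k + 1))) :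
    ∀ i < N, ∀ j < N, key i = key j → i = j := by
  have mono : ∀ a b, a < b → b < N → key (ord a) < key (ord b) := by
    intro a b hab
    induction b with
    | zero => omega
    | succ b ih =>
      intro hb
      rcases Nat.lt_succ_iff_lt_or_eq.mp hab with h | h
      · exact lt_trans (ih h (by omega)) (hlt b hb)
      · rw [h]; exact hlt b hb
  intro i hi j hj hk
  obtain ⟨hpi, hoi⟩ := hpos i hi
  obtain ⟨hpj, hoj⟩ := hpos j hj
  rcases Nat.lt_trichotomy (pos i) (pos j) with h1 | h1 | h1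
  · have := mono _ _ h1 hpj
    rw [hoi, hoj, hk] at this
    exact absurd this (lt_irrefl _)
  · rw [← hoi, ← hoj, h1]
  · have := mono _ _ h1 hpi
    rw [hoi, hoj, hk] at this
    exact absurd this (lt_irrefl _)

/-- the keys increase along `ord`, hence are bounded by the last one -/
theorem le_last_of_sorted (key : ℕ → ℕ) (N : ℕ) (ord pos : ℕ → ℕ)
    (hpos : ∀ j < N, pos j < N ∧ ord (pos j) = j)
    (hlt : ∀ k, k + 1 < N → key (ord k) < key (ord (k + 1))) :
    ∀ i < N, key i ≤ key (ord (N - 1)) := by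
  have mono : ∀ a b, a ≤ b → b < N → key (ord a) ≤ key (ord b) := by
    intro a b hab
    induction b with
    | zero =>
      intro _
      have : a = 0 := by omega
      rw [this]
    | succ b ih =>
      intro hb
      rcases Nat.lt_succ_iff_lt_or_eq.mp (Nat.lt_succ_of_le hab) with h | h
      · exact le_trans (ih (by omega) (by omega)) (le_of_lt (hlt b hb))
      · rw [h]
  intro i hi
  obtain ⟨hpi, hoi⟩ := hpos i hi
  have := mono (pos i) (N - 1) (by omega) (by omega)
  rwa [hoi] at this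

/-! ### checks -/

/-- bounds of the indices of the Schreier elements of the first level -/
def chkB1 (jj kk : ℕ → ℕ → ℕ) (i : ℕ) : Bool :=
  allBelow (fun l => Nat.blt (jj l i) 243 && Nat.blt (kk l i) 24) 2

/-- bounds of the indices of the Schreier elements of the second level -/
def chkB2 (k2 : ℕ → ℕ → ℕ) (j : ℕ) : Bool := allBelow (fun l => Nat.blt (k2 l j) 24) 3

/-- the element number `j` fixes the basis vector number `c` -/
def chkFix (c : ℕ) (T : ℕ → ℕ) (j : ℕ) : Bool := Nat.beq (colK c (T j)) (colK c oneP)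

/-- `pos` is a right inverse of `ord` -/
def chkPos (ord pos : ℕ → ℕ) (N j : ℕ) : Bool := Nat.blt (pos j) N && Nat.beq (ord (pos j)) j

/-- the keys of column `c` increase along `ord` -/
def chkSort (c : ℕ) (T ord : ℕ → ℕ) (k : ℕ) : Bool :=
  Nat.blt (colK c (T (ord k))) (colK c (T (ord (Nat.succ k))))

/-- the packed vectors increase along `ord` -/
def chkSortV (pt ord : ℕ → ℕ) (k : ℕ) : Bool := Nat.blt (pt (ord k)) (pt (ord (Nat.succ k)))

/-- the element `e n` is a product of elements of the three tables -/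
def chkEl (C1 C2 T e ri rj rk : ℕ → ℕ) (n : ℕ) : Bool :=
  Nat.beq (mulP (C1 (ri n)) (mulP (C2 (rj n)) (T (rk n)))) (e n) && Nat.blt (ri n) 728 &&
    Nat.blt (rj n) 243 && Nat.blt (rk n) 24

/-- inverse certificate -/
def chkInv (g gi : ℕ → ℕ) (l : ℕ) : Bool :=
  Nat.beq (mulP (g l) (gi l)) oneP && Nat.beq (mulP (gi l) (g l)) oneP

/-- the two generators permute the packed vectors as the table `act` says -/
def chkAct (gen pt : ℕ → ℕ) (act : ℕ → ℕ → ℕ) (n i : ℕ) : Bool :=
  allBelow (fun l => mapB (gen l) (pt i) (pt (act l i)) && Nat.blt (act l i) n) 2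

end Cfsg.Agent.Lib.Helper60.G23
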