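import Mathlib
import Cfsg.Agent.Lib.Helper60.U34.Semi

/-!
Excluding elements of order `r * s` through fixed point counts: if an element `g` of prime order
`r` (with `r²` not dividing the group order) acts without fixed points on a finite set, then the
number of fixed points of every element commuting with `g` is a multiple of `r`.
-/

set_option autoImplicit false

namespace Cfsg.Agent.Lib.Helper60.G23

open Cfsg.Agent.Lib.Helper60.U34 (exists_conj_zpowers)

/-- a permutation without fixed points whose `r`-th power is trivial, commuting with `τ`: the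
number of fixed points of `τ` is a multiple of `r` -/
theorem dvd_card_fixed {α : Type*} [Fintype α] [DecidableEq α] (σ τ : Equiv.Perm α) (r : ℕ)
    [Fact r.Prime] (hσ : σ ^ r = 1) (hc : σ * τ = τ * σ) (hf : ∀ i, σ i ≠ i) :
    r ∣ (Finset.univ.filter (fun i => τ i = i)).card := by
  have h1 : ∀ i, τ (σ i) = σ i ↔ τ i = i := by
    intro i
    have e : τ (σ i) = σ (τ i) := by
      have h2 := congrArg (fun f : Equiv.Perm α => f i) hc
      simp only [Equiv.Perm.mul_apply] at h2
      exact h2.symm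
    constructor
    · intro h
      rw [e] at h
      exact σ.injective h
    · intro h
      rw [e, h]
  by_contra hnd
  have hcard : Fintype.card {i // τ i = i} = (Finset.univ.filter (fun i => τ i = i)).card :=
    Fintype.card_subtype _
  rw [← hcard] at hnd
  have hpow : (Equiv.Perm.subtypePerm (p := fun i => τ i = i) σ h1) ^ r ^ 1 = 1 := by
    rw [pow_one, Equiv.Perm.subtypePerm_pow]
    ext x
    simp [hσ]
  obtain ⟨a, ha⟩ := Equiv.Perm.exists_fixed_point_of_prime hnd hpow
  exact hf a.1 (congrArg Subtype.val ha)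

/-- an element of prime order is conjugate into a given Sylow subgroup -/
theorem exists_conj_mem_sylow {G : Type*} [Group G] [Finite G] (s : ℕ) [Fact s.Prime]
    (P : Sylow s G) (b : G) (hb : orderOf b = s) : ∃ u : G, u * b * u⁻¹ ∈ (P : Subgroup G) := by
  have hpg : IsPGroup s (Subgroup.zpowers b) := by
    apply IsPGroup.of_card (n := 1)
    rw [Nat.card_zpowers, hb, pow_one]
  obtain ⟨Q, hQ⟩ := hpg.exists_le_sylow
  obtain ⟨u, hu⟩ := MulAction.exists_smul_eq G Q P
  refine ⟨u, ?_⟩
  have hb' : b ∈ (Q : Subgroup G) := hQ (Subgroup.mem_zpowers b)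
  have h2 : u * b * u⁻¹ ∈ ((u • Q : Sylow s G) : Subgroup G) := by
    rw [Sylow.smul_def, Sylow.pointwise_smul_def, Subgroup.mem_pointwise_smul_iff_inv_smul_mem]
    simpa [MulAut.smul_def, MulAut.conj_apply, mul_assoc] using hb'
  rwa [hu] at h2

/-- a subgroup of order `s ^ a`, where `s ^ (a + 1)` does not divide the group order, is a Sylow
subgroup -/
theorem exists_sylow_eq {G : Type*} [Group G] [Finite G] (s a : ℕ) [hs : Fact s.Prime]
    (P : Subgroup G) (hP : Nat.card P = s ^ a) (hn : ¬ s ^ (a + 1) ∣ Nat.card G) :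
    ∃ Q : Sylow s G, (Q : Subgroup G) = P := by
  have hpg : IsPGroup s P := IsPGroup.of_card hP
  obtain ⟨Q, hQ⟩ := hpg.exists_le_sylow
  refine ⟨Q, ?_⟩
  obtain ⟨k, hk⟩ := IsPGroup.iff_card.mp Q.isPGroup'
  have hQG : Nat.card (Q : Subgroup G) ∣ Nat.card G := Subgroup.card_subgroup_dvd_card _
  have hka : k ≤ a := by
    by_contra h
    apply hn
    rw [hk] at hQG
    exact dvd_trans (pow_dvd_pow s (by omega)) hQG
  symm
  apply Subgroup.eq_of_le_of_card_ge hQ
  rw [hk, hP]
  exact Nat.pow_le_pow_right hs.out.pos hka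

/-- no element of order `r * s`: an element `g` of order `r` generates a Sylow subgroup, and
every element of order `s` of a Sylow `s`-subgroup has, on some finite set on which `g` acts
without fixed points, a number of fixed points prime to `r` -/
theorem no_order_mul {G : Type*} [Group G] [Finite G] (r s : ℕ) [hr' : Fact r.Prime]
    [hs' : Fact s.Prime] (hr : ¬ r ^ 2 ∣ Nat.card G) (g : G) (hg : orderOf g = r) (P : Sylow s G)
    (hP : ∀ y ∈ (P : Subgroup G), orderOf y = s → ∃ (n : ℕ) (π : G →* Equiv.Perm (Fin n)),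
      (∀ i, π g i ≠ i) ∧ ¬ r ∣ (Finset.univ.filter (fun i => π y i = i)).card) :
    ¬ ∃ z : G, orderOf z = r * s := by
  rintro ⟨z, hz⟩
  have hr0 : 0 < r := hr'.out.pos
  have hs0 : 0 < s := hs'.out.pos
  have ha : orderOf (z ^ s) = r := by
    rw [orderOf_pow' _ hs0.ne', hz, Nat.gcd_mul_left_left, Nat.mul_div_cancel _ hs0]
  have hb : orderOf (z ^ r) = s := by
    rw [orderOf_pow' _ hr0.ne', hz, Nat.gcd_mul_right_left, Nat.mul_div_cancel_left _ hr0]
  obtain ⟨h, hh⟩ := exists_conj_zpowers r hr (z ^ s) g ha hg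
  have hcomm0 : Commute (z ^ s) (z ^ r) := (Commute.refl z).pow_pow s r
  have hcomm1 : Commute (h * z ^ s * h⁻¹) (h * z ^ r * h⁻¹) := by
    have := hcomm0.map (MulAut.conj h)
    simpa [MulAut.conj_apply] using this
  have hcomm2 : Commute g (h * z ^ r * h⁻¹) := by
    obtain ⟨k, hk⟩ := Subgroup.mem_zpowers_iff.mp hh
    rw [← hk]
    exact hcomm1.zpow_left k
  have hb' : orderOf (h * z ^ r * h⁻¹) = s := by
    rw [← hb]
    exact (MulAut.conj h).orderOf_eq (z ^ r)
  obtain ⟨u, hu⟩ := exists_conj_mem_sylow s P _ hb'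
  have hy : orderOf (u * (h * z ^ r * h⁻¹) * u⁻¹) = s := by
    rw [← hb']
    exact (MulAut.conj u).orderOf_eq _
  obtain ⟨n, π, hfree, hnd⟩ := hP _ hu hy
  apply hnd
  have hcomm3 : Commute (u * g * u⁻¹) (u * (h * z ^ r * h⁻¹) * u⁻¹) := by
    have := hcomm2.map (MulAut.conj u)
    simpa [MulAut.conj_apply] using this
  refine dvd_card_fixed (π (u * g * u⁻¹)) (π (u * (h * z ^ r * h⁻¹) * u⁻¹)) r ?_ ?_ ?_
  · rw [← map_pow]
    have e1 : (u * g * u⁻¹) ^ r = 1 := by
      have e2 : (u * g * u⁻¹) ^ r = u * g ^ r * u⁻¹ := by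
        have := map_pow (MulAut.conj u) g r
        simpa [MulAut.conj_apply] using this
      rw [e2, ← hg, pow_orderOf_eq_one, mul_one, mul_inv_cancel]
    rw [e1, map_one]
  · rw [← map_mul, ← map_mul, hcomm3.eq]
  · intro i hi
    rw [map_mul, map_mul, Equiv.Perm.mul_apply, Equiv.Perm.mul_apply] at hi
    apply hfree ((π u⁻¹) i)
    have h3 := congrArg (π u⁻¹) hi
    rw [← Equiv.Perm.mul_apply (π u⁻¹) (π u), ← map_mul, inv_mul_cancel, map_one,
      Equiv.Perm.one_apply] at h3
    exact h3

end Cfsg.Agent.Lib.Helper60.G23
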