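import Cfsg.Agent.Lib.Helper60.G23.Chk
import Cfsg.Agent.Lib.Helper60.G23.ChkG
import Cfsg.Agent.Lib.Helper60.G23.ChkH
import Cfsg.Agent.Lib.Helper60.G23.Gens
import Cfsg.Agent.Lib.Helper60.G23.Perm

/-!
The Chevalley group `G₂(3)` (14 × 14 matrices): its order 4245696 = 728 · 243 · 24 from two levels
of coset tables and the table of the stabilizer of two vectors; an element of order 6; and no
elements of orders 14, 21, 26, 39, 91, from the numbers of fixed points of the elements of the
Sylow subgroups on four invariant sets of vectors on which the elements of orders 7 and 13 act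
without fixed points.
-/

set_option autoImplicit false

namespace Cfsg.Agent.Lib.Helper60.G23

open Cfsg Cfsg.Lie Cfsg.Agent.Lib.Helper60.Cert
open Cfsg.Agent.Lib.Helper60.G2 (Mat toMat model mulP oneP toMat_oneP)

open scoped Matrix

theorem ok_gRinv : allBelow (fun r => Nat.beq (mulP (gR r) (gR (Nat.add 12 r))) oneP &&
    Nat.beq (mulP (gR (Nat.add 12 r)) (gR r)) oneP) 12 = true := by
  decide +kernel

theorem wA_lt : ∀ l < 2, ∀ k ∈ wA l, k < 25 := by decide

section field

variable {F : Type*} [Field F] [Fintype F] (e : ZMod 3 ≃+* F)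

instance : Finite (GLF F) := inferInstance

/-- the group generated by the two packed matrices -/
def Γ : Subgroup (GLF F) := genGrp model (ψA e) Ggen 2

theorem hexG : ∀ l < 2, ∃ g, ψA e g = model.toM (Ggen l) := by
  intro l hl
  have h := ok_inv l hl
  simp only [chkInv, Bool.and_eq_true] at h
  exact exists_of_inv e (Nat.eq_of_beq_eq_true h.1) (Nat.eq_of_beq_eq_true h.2)

theorem Ggen_real (k : ℕ) : Real model (ψA e) (Γ e) (Ggen k) := by
  rcases k with _ | k
  · exact gen_real (hexG e) 0 (by norm_num)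
  · exact gen_real (hexG e) 1 (by norm_num)

theorem Pgen_real : ∀ l < 3, Real model (ψA e) (Γ e) (Pgen l) := by
  intro l hl
  have h := allBelow_spec _ _ ok_pw l hl
  exact (Real.evalW Ggen (pw l) (fun k _ => Ggen_real e k)).of_eq (Nat.eq_of_beq_eq_true h)

/-- the stabilizer of a vector -/
def P1 : Subgroup (GLF F) := genGrp model (ψA e) Pgen 3
/-- the stabilizer of two vectors -/
def Lt : Subgroup (GLF F) := genGrp model (ψA e) Tgen 2

theorem hexP : ∀ l < 3, ∃ g, ψA e g = model.toM (Pgen l) := fun l hl => by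
  obtain ⟨g, _, hg⟩ := Pgen_real e l hl
  exact ⟨g, hg⟩

theorem Tgen_eq : ∀ l < 2, Tgen l = Pgen l := by
  intro l hl
  interval_cases l
  · exact ok_T01.1
  · exact ok_T01.2

theorem hexT : ∀ l < 2, ∃ g, ψA e g = model.toM (Tgen l) := fun l hl => by
  rw [Tgen_eq l hl]
  exact hexP e l (by omega)

theorem card_Lt : Nat.card (Lt e) = 24 := card_L (D := TL) TLok (ψA_inj e) (hexT e)

theorem TT_real : ∀ k < 24, Real model (ψA e) (Lt e) (TT k) := L_sup (D := TL) TLok (hexT e)

theorem Lt_le_P1 : Lt e ≤ P1 e := by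
  apply genGrp_le (ψA_inj e)
  intro l hl
  rw [Tgen_eq l hl]
  exact gen_real (hexP e) l (by omega)

theorem P1_le : P1 e ≤ Γ e := genGrp_le (ψA_inj e) (Γ e) (Pgen_real e)

theorem C2_real : ∀ j < 243, Real model (ψA e) (P1 e) (C2T j) :=
  C_sup (D := C2D) C2ok (hexP e)

theorem card_P1_le : Nat.card (P1 e) ≤ 243 * 24 := by
  have hw : ∀ l < 3, ∀ j < 243, Real model (ψA e) (Lt e) (TT (k2 l j)) := by
    intro l hl j hj
    have h0 := ok_b2 j hj
    unfold chkB2 at h0
    have h := allBelow_spec _ _ h0 l hl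
    simp only [Nat.blt_eq] at h
    exact TT_real e _ h
  have h := card_C_le (D := C2D) C2ok (ψA_inj e) (Lt e) hw
  rw [card_Lt] at h
  exact h

theorem C1_real : ∀ i < 728, Real model (ψA e) (Γ e) (C1T i) :=
  C_sup (D := C1D) C1ok (hexG e)

theorem card_Γ_le : Nat.card (Γ e) ≤ 4245696 := by
  have hw : ∀ l < 2, ∀ i < 728,
      Real model (ψA e) (P1 e) (mulP (C2T (jj l i)) (TT (kk l i))) := by
    intro l hl i hi
    have h0 := ok_b1 i hi
    unfold chkB1 at h0
    have h := allBelow_spec _ _ h0 l hl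
    simp only [Bool.and_eq_true, Nat.blt_eq] at h
    exact (C2_real e _ h.1).mul ((TT_real e _ h.2).mono (Lt_le_P1 e))
  have h := card_C_le (D := C1D) C1ok (ψA_inj e) (P1 e) hw
  have h2 := card_P1_le e
  calc Nat.card (Γ e) ≤ 728 * Nat.card (P1 e) := h
    _ ≤ 728 * (243 * 24) := Nat.mul_le_mul_left _ h2
    _ = 4245696 := by norm_num

/-! ### the elements of the tables are different -/

theorem toMat_fix {c : Fin 14} {x : ℕ} (h : Nat.beq (colK c.val x) (colK c.val oneP) = true) :
    colA c (toMat x) = colA c 1 := by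
  rw [colA_of_colK c x oneP (Nat.eq_of_beq_eq_true h), toMat_oneP]

theorem fixT13 : ∀ k < 24, colA 13 (toMat (TT k)) = colA 13 1 :=
  fun k hk => toMat_fix (c := 13) (ok_fixT13 k hk)

theorem fixT2 : ∀ k < 24, colA 2 (toMat (TT k)) = colA 2 1 :=
  fun k hk => toMat_fix (c := 2) (ok_fixT2 k hk)

theorem fixC2 : ∀ j < 243, colA 13 (toMat (C2T j)) = colA 13 1 :=
  fun j hj => toMat_fix (c := 13) (ok_fixC2 j hj)

theorem key13_inj : ∀ i < 728, ∀ i' < 728,
    colA 13 (toMat (C1T i)) = colA 13 (toMat (C1T i')) → i = i' := by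
  intro i hi i' hi' h
  have hk : colK 13 (C1T i) = colK 13 (C1T i') := colK_of_colA 13 _ _ h
  refine inj_of_sorted_key (fun i => colK 13 (C1T i)) 728 ord1 pos1 ?_ ?_ i hi i' hi' hk
  · intro j hj
    have h := ok_pos1 j hj
    simp only [chkPos, Bool.and_eq_true, Nat.blt_eq] at h
    exact ⟨h.1, Nat.eq_of_beq_eq_true h.2⟩
  · intro k hk
    have h := ok_sort1 k (by omega)
    simp only [chkSort, Nat.blt_eq] at h
    exact h

theorem key2_inj : ∀ j < 243, ∀ j' < 243,
    colA 2 (toMat (C2T j)) = colA 2 (toMat (C2T j')) → j = j' := by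
  intro i hi i' hi' h
  have hk : colK 2 (C2T i) = colK 2 (C2T i') := colK_of_colA 2 _ _ h
  refine inj_of_sorted_key (fun i => colK 2 (C2T i)) 243 ord2 pos2 ?_ ?_ i hi i' hi' hk
  · intro j hj
    have h := ok_pos2 j hj
    simp only [chkPos, Bool.and_eq_true, Nat.blt_eq] at h
    exact ⟨h.1, Nat.eq_of_beq_eq_true h.2⟩
  · intro k hk
    have h := ok_sort2 k (by omega)
    simp only [chkSort, Nat.blt_eq] at h
    exact h

theorem TA_inj : ∀ k < 24, ∀ k' < 24, toMat (TT k) = toMat (TT k') → k = k' :=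
  inj_of_dist (μ := model) (D := TL) ok_distA

theorem exists_elems : ∃ (c : Fin 728 → GLF F) (d : Fin 243 → GLF F) (t : Fin 24 → GLF F),
    (∀ i, c i ∈ Γ e ∧ ψA e (c i) = toMat (C1T i.val)) ∧
    (∀ j, d j ∈ P1 e ∧ ψA e (d j) = toMat (C2T j.val)) ∧
    (∀ k, t k ∈ Lt e ∧ ψA e (t k) = toMat (TT k.val)) := by
  choose c hc hcv using fun i : Fin 728 => C1_real e i.val i.isLt
  choose d hd hdv using fun j : Fin 243 => C2_real e j.val j.isLt
  choose t ht htv using fun k : Fin 24 => TT_real e k.val k.isLt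
  exact ⟨c, d, t, fun i => ⟨hc i, hcv i⟩, fun j => ⟨hd j, hdv j⟩, fun k => ⟨ht k, htv k⟩⟩

omit [Fintype F] in
theorem prod_inj (c : Fin 728 → GLF F) (d : Fin 243 → GLF F) (t : Fin 24 → GLF F)
    (hc : ∀ i, ψA e (c i) = toMat (C1T i.val)) (hd : ∀ j, ψA e (d j) = toMat (C2T j.val))
    (ht : ∀ k, ψA e (t k) = toMat (TT k.val)) :
    ∀ (i i' : Fin 728) (j j' : Fin 243) (k k' : Fin 24),
      c i * d j * t k = c i' * d j' * t k' → i = i' ∧ j = j' ∧ k = k' := by
  intro i i' j j' k k' h
  have eA : ∀ i j k, ψA e (c i * d j * t k) =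
      toMat (C1T i.val) * (toMat (C2T j.val) * toMat (TT k.val)) := by
    intro i j k
    rw [map_mul, map_mul, hc, hd, ht, mul_assoc]
  have e1 := congrArg (ψA e) h
  rw [eA, eA] at e1
  have col : ∀ (i : Fin 728) (j : Fin 243) (k : Fin 24),
      colA 13 (toMat (C1T i.val) * (toMat (C2T j.val) * toMat (TT k.val))) =
        colA 13 (toMat (C1T i.val)) := by
    intro i j k
    apply colA_mul
    rw [colA_mul 13 _ _ (fixT13 k.val k.isLt)]
    exact fixC2 j.val j.isLt
  have h13 : colA 13 (toMat (C1T i.val)) = colA 13 (toMat (C1T i'.val)) := by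
    rw [← col i j k, ← col i' j' k', e1]
  have hi : i = i' := Fin.ext (key13_inj _ i.isLt _ i'.isLt h13)
  subst hi
  have h2 : d j * t k = d j' * t k' := by
    have h' : c i * (d j * t k) = c i * (d j' * t k') := by
      rw [← mul_assoc, ← mul_assoc]
      exact h
    exact mul_left_cancel h'
  have eB : ∀ j k, ψA e (d j * t k) = toMat (C2T j.val) * toMat (TT k.val) := by
    intro j k
    rw [map_mul, hd, ht]
  have e2 := congrArg (ψA e) h2
  rw [eB, eB] at e2
  have col2 : ∀ (j : Fin 243) (k : Fin 24),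
      colA 2 (toMat (C2T j.val) * toMat (TT k.val)) = colA 2 (toMat (C2T j.val)) :=
    fun j k => colA_mul 2 _ _ (fixT2 k.val k.isLt)
  have h22 : colA 2 (toMat (C2T j.val)) = colA 2 (toMat (C2T j'.val)) := by
    rw [← col2 j k, ← col2 j' k', e2]
  have hj : j = j' := Fin.ext (key2_inj _ j.isLt _ j'.isLt h22)
  subst hj
  have h3 : t k = t k' := mul_left_cancel h2
  have e3 := congrArg (ψA e) h3
  rw [ht, ht] at e3
  exact ⟨rfl, rfl, Fin.ext (TA_inj _ k.isLt _ k'.isLt e3)⟩

/-- the order of the group generated by the two packed matrices -/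
theorem card_Γ : Nat.card (Γ e) = 4245696 := by
  obtain ⟨c, d, t, hc, hd, ht⟩ := exists_elems e
  have hmem : ∀ p : Fin 728 × Fin 243 × Fin 24, c p.1 * d p.2.1 * t p.2.2 ∈ Γ e := fun p =>
    (Γ e).mul_mem ((Γ e).mul_mem (hc p.1).1 (P1_le e (hd p.2.1).1))
      (P1_le e (Lt_le_P1 e (ht p.2.2).1))
  let Φ : Fin 728 × Fin 243 × Fin 24 → Γ e := fun p => ⟨c p.1 * d p.2.1 * t p.2.2, hmem p⟩
  have hinj : Function.Injective Φ := by
    rintro ⟨i, j, k⟩ ⟨i', j', k'⟩ h
    obtain ⟨a1, a2, a3⟩ := prod_inj e c d t (fun i => (hc i).2) (fun j => (hd j).2)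
      (fun k => (ht k).2) i i' j j' k k' (congrArg Subtype.val h)
    rw [a1, a2, a3]
  have hcd : Nat.card (Fin 728 × Fin 243 × Fin 24) = 4245696 := by
    rw [Nat.card_prod, Nat.card_prod, Nat.card_fin, Nat.card_fin, Nat.card_fin]
  have hle : 4245696 ≤ Nat.card (Γ e) := by
    have := Nat.card_le_card_of_injective Φ hinj
    rwa [hcd] at this
  exact le_antisymm (card_Γ_le e) hle

/-! ### the group is the Chevalley group -/

omit [Fintype F] in
theorem hexR : ∀ l < 25, ∃ g : GLF F, ψA e g = model.toM (gR l) := by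
  intro l hl
  rcases Nat.lt_or_ge l 12 with h1 | h1
  · have h := allBelow_spec _ _ ok_gRinv l h1
    simp only [Bool.and_eq_true] at h
    exact exists_of_inv e (Nat.eq_of_beq_eq_true h.1) (Nat.eq_of_beq_eq_true h.2)
  · rcases Nat.lt_or_ge l 24 with h2 | h2
    · have h := allBelow_spec _ _ ok_gRinv (l - 12) (by omega)
      simp only [Bool.and_eq_true] at h
      have e3 : Nat.add 12 (l - 12) = l := by change 12 + (l - 12) = l; omega
      rw [e3] at h
      exact exists_of_inv e (Nat.eq_of_beq_eq_true h.2) (Nat.eq_of_beq_eq_true h.1)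
    · have h24 : l = 24 := by omega
      subst h24
      exact ⟨1, by rw [map_one, gR_one]; exact toMat_oneP.symm⟩

theorem root_real : ∀ l < 25, Real model (ψA e) (Γ e) (gR l) := by
  intro l hl
  rcases Nat.lt_or_ge l 24 with h24 | h24
  · have h := ok_root l h24
    simp only [chkEl, Bool.and_eq_true, Nat.blt_eq] at h
    obtain ⟨⟨⟨h1, h2⟩, h3⟩, h4⟩ := h
    exact ((C1_real e _ h2).mul (((C2_real e _ h3).mono (P1_le e)).mul
      ((TT_real e _ h4).mono ((Lt_le_P1 e).trans (P1_le e))))).of_eq (Nat.eq_of_beq_eq_true h1)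
  · have h24' : l = 24 := by omega
    subst h24'
    rw [gR_one]
    exact Real.one _

/-- the Chevalley group is the group generated by the two packed matrices -/
theorem group_eq_Γ : chevG2.group F = Γ e := by
  apply le_antisymm
  · rw [group_eq e]
    exact genGrp_le (ψA_inj e) (Γ e) (root_real e)
  · apply genGrp_le (ψA_inj e)
    intro l hl
    have h2 := allBelow_spec _ _ ok_wA l hl
    rw [Nat.eq_of_beq_eq_true h2, group_eq e]
    exact Real.evalW gR (wA l) (fun k hk => gen_real (hexR e) k (wA_lt l hl k hk))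

end field

end Cfsg.Agent.Lib.Helper60.G23
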