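import Cfsg.Agent.Lib.Helper60.G23.Main

/-!
`G₂(3)`: an element of order 6, and no elements of orders 14, 21, 26, 39, 91.
-/

set_option autoImplicit false

namespace Cfsg.Agent.Lib.Helper60.G23

open Cfsg Cfsg.Lie Cfsg.Agent.Lib.Helper60.Cert
open Cfsg.Agent.Lib.Helper60.G2 (Mat toMat model mulP oneP toMat_oneP)
open Cfsg.Agent.Lib.Helper60.J3 (closure_left_ind')

open scoped Matrix

/-- a group mapping to the matrices and permuting an injective family of vectors acts on the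
index set -/
theorem exists_vecPerm {H : Type*} [Group H] (φ : H →* Mat) {n : ℕ} (p : Fin n → Vec)
    (hp : Function.Injective p) (hinv : ∀ h i, ∃ j, φ h *ᵥ p i = p j) :
    ∃ ρ : H →* Equiv.Perm (Fin n), ∀ h i j, ρ h i = j ↔ φ h *ᵥ p i = p j := by
  choose f hf using hinv
  have huniq : ∀ h i j, φ h *ᵥ p i = p j → f h i = j :=
    fun h i j hj => hp ((hf h i).symm.trans hj)
  have h1 : ∀ i, f 1 i = i := fun i => huniq 1 i i (by rw [map_one, Matrix.one_mulVec])
  have hmul : ∀ g h i, f (g * h) i = f g (f h i) := by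
    intro g h i
    apply huniq
    rw [map_mul, ← Matrix.mulVec_mulVec, hf h i, hf g]
  refine ⟨{ toFun := fun g => ⟨f g, f g⁻¹, fun i => by rw [← hmul, inv_mul_cancel, h1],
              fun i => by rw [← hmul, mul_inv_cancel, h1]⟩
            map_one' := Equiv.ext h1
            map_mul' := fun g h => Equiv.ext (hmul g h) }, fun h i j => ⟨?_, huniq h i j⟩⟩
  intro hj
  have : f h i = j := hj
  rw [← this]
  exact hf h i

/-- an invariant set of packed vectors with its certificates -/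
structure VOK (n : ℕ) (pt : ℕ → ℕ) (act : ℕ → ℕ → ℕ) (ord pos : ℕ → ℕ) : Prop where
  act : ∀ i < n, chkAct Ggen pt act n i = true
  pos : ∀ j < n, chkPos ord pos n j = true
  sort : ∀ k < n - 1, chkSortV pt ord k = true
  max : pt (ord (n - 1)) < 3 ^ 14
  npos : 0 < n

theorem okA : VOK 728 ptA actA ordA posA := ⟨ok_actA, ok_posA, ok_sortA, ok_maxA, by norm_num⟩
theorem okB : VOK 728 ptB actB ordB posB := ⟨ok_actB, ok_posB, ok_sortB, ok_maxB, by norm_num⟩
theorem okC : VOK 5824 ptC actC ordC posC := ⟨ok_actC, ok_posC, ok_sortC, ok_maxC, by norm_num⟩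
theorem okD : VOK 702 ptD actD ordD posD := ⟨ok_actD, ok_posD, ok_sortD, ok_maxD, by norm_num⟩

section vok

variable {n : ℕ} {pt : ℕ → ℕ} {act : ℕ → ℕ → ℕ} {ord pos : ℕ → ℕ} (V : VOK n pt act ord pos)

include V in
theorem VOK.inj : ∀ i < n, ∀ j < n, vec (pt i) = vec (pt j) → i = j := by
  have hpos : ∀ j < n, pos j < n ∧ ord (pos j) = j := by
    intro j hj
    have h := V.pos j hj
    simp only [chkPos, Bool.and_eq_true, Nat.blt_eq] at h
    exact ⟨h.1, Nat.eq_of_beq_eq_true h.2⟩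
  have hlt : ∀ k, k + 1 < n → pt (ord k) < pt (ord (k + 1)) := by
    intro k hk
    have h := V.sort k (by omega)
    simp only [chkSortV, Nat.blt_eq] at h
    exact h
  have hb : ∀ i < n, pt i < 3 ^ 14 := fun i hi =>
    lt_of_le_of_lt (le_last_of_sorted pt n ord pos hpos hlt i hi) V.max
  intro i hi j hj h
  exact inj_of_sorted_key pt n ord pos hpos hlt i hi j hj (vec_inj (hb i hi) (hb j hj) h)

variable {F : Type*} [Field F] [Fintype F] (e : ZMod 3 ≃+* F)

include V in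
theorem VOK.inv : ∀ g ∈ Γ e, ∀ i < n, ∃ j < n, ψA e g *ᵥ vec (pt i) = vec (pt j) := by
  unfold Γ genGrp
  apply closure_left_ind'
  · intro g _
    exact isOfFinOrder_of_finite g
  · intro i hi
    exact ⟨i, hi, by rw [map_one, Matrix.one_mulVec]⟩
  · rintro g ⟨l, hl, hg⟩ k hk i hi
    obtain ⟨j, hj, hjv⟩ := hk i hi
    have h := allBelow_spec _ _ (V.act j hj) l hl
    simp only [Bool.and_eq_true, Nat.blt_eq] at h
    refine ⟨act l j, h.2, ?_⟩
    rw [map_mul, ← Matrix.mulVec_mulVec, hjv, hg]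
    exact (mapB_iff _ _ _).mp h.1

include V in
theorem VOK.exists_perm : ∃ ρ : ↥(Γ e) →* Equiv.Perm (Fin n), ∀ (h : ↥(Γ e)) (i j : Fin n),
    ρ h i = j ↔ ψA e h.1 *ᵥ vec (pt i.val) = vec (pt j.val) :=
  exists_vecPerm ((ψA e).comp (Γ e).subtype) (fun i : Fin n => vec (pt i.val))
    (fun i j h => Fin.ext (V.inj i.val i.isLt j.val j.isLt h))
    (fun h i => by
      obtain ⟨j, hj, hjv⟩ := V.inv e h.1 h.2 i.val i.isLt
      exact ⟨⟨j, hj⟩, hjv⟩)

/-- the action on the indices of an invariant set of vectors -/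
noncomputable def vperm : ↥(Γ e) →* Equiv.Perm (Fin n) := Classical.choose (V.exists_perm e)

theorem vperm_spec (h : ↥(Γ e)) (i j : Fin n) :
    vperm V e h i = j ↔ ψA e h.1 *ᵥ vec (pt i.val) = vec (pt j.val) :=
  Classical.choose_spec (V.exists_perm e) h i j

theorem vperm_card (h : ↥(Γ e)) (x : ℕ) (hx : ψA e h.1 = toMat x) :
    (Finset.univ.filter (fun i : Fin n => vperm V e h i = i)).card = cntFix x pt n := by
  rw [cntFix, cnt_eq, ← Finset.card_map Fin.valEmbedding]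
  congr 1
  ext a
  simp only [Finset.mem_map, Finset.mem_filter, Finset.mem_univ, true_and, Fin.valEmbedding_apply,
    Finset.mem_range]
  constructor
  · rintro ⟨i, hi, rfl⟩
    refine ⟨i.isLt, ?_⟩
    rw [vperm_spec, hx] at hi
    exact (mapB_iff _ _ _).mpr hi
  · rintro ⟨ha, hq⟩
    refine ⟨⟨a, ha⟩, ?_, rfl⟩
    rw [vperm_spec, hx]
    exact (mapB_iff _ _ _).mp hq

theorem vperm_free (h : ↥(Γ e)) (x : ℕ) (hx : ψA e h.1 = toMat x) (h0 : cntFix x pt n = 0) :
    ∀ i, vperm V e h i ≠ i := by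
  have hc := vperm_card V e h x hx
  rw [h0, Finset.card_eq_zero, Finset.filter_eq_empty_iff] at hc
  intro i
  exact hc (Finset.mem_univ i)

end vok

section field

variable {F : Type*} [Field F] [Fintype F] (e : ZMod 3 ≃+* F)

instance : Finite ↥(Γ e) := inferInstance

/-! ### elements of given orders -/

omit [Fintype F] in
theorem pow_ne_one_of {g : GLF F} {m k : ℕ} (hg : ψA e g = model.toM m)
    (h : model.neq (model.powP m k) model.oneP = true) : g ^ k ≠ 1 := by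
  intro h3
  have h4 := congrArg (ψA e) h3
  rw [map_pow, hg, ← model.toM_powP, map_one, ← model.toM_one] at h4
  exact model.toM_ne h h4

theorem order6 : ∃ g : ↥(Γ e), orderOf g = 6 := by
  obtain ⟨g, hg, hgv⟩ : Real model (ψA e) (Γ e) L6 :=
    (Real.evalW Ggen wo6 (fun k _ => Ggen_real e k)).of_eq (Nat.eq_of_beq_eq_true ok_L6)
  refine ⟨⟨g, hg⟩, ?_⟩
  rw [Subgroup.orderOf_mk]
  apply orderOf_eq_of_pow_and_pow_div_prime (by norm_num)
    (pow_eq_one_of (μ := model) (ψA_inj e) hgv L6_pow)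
  intro p hp hd
  have h23 : p = 2 ∨ p = 3 := by
    have h6 : p ∣ 2 * 3 := hd
    rcases (Nat.Prime.dvd_mul hp).mp h6 with h | h
    · left; exact (Nat.prime_dvd_prime_iff_eq hp Nat.prime_two).mp h
    · right; exact (Nat.prime_dvd_prime_iff_eq hp Nat.prime_three).mp h
  rcases h23 with rfl | rfl
  · have e' : 6 / 2 = 3 := by norm_num
    rw [e']
    exact pow_ne_one_of e (k := 3) hgv L6_ne3
  · have e' : 6 / 3 = 2 := by norm_num
    rw [e']
    exact pow_ne_one_of e (k := 2) hgv L6_ne2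

theorem exists_g7 : ∃ g : ↥(Γ e), ψA e g.1 = toMat L7 ∧ orderOf g = 7 := by
  obtain ⟨g, hg, hgv⟩ : Real model (ψA e) (Γ e) L7 :=
    (Real.evalW Ggen wo7 (fun k _ => Ggen_real e k)).of_eq (Nat.eq_of_beq_eq_true ok_L7)
  have : Fact (Nat.Prime 7) := ⟨by norm_num⟩
  refine ⟨⟨g, hg⟩, hgv, ?_⟩
  rw [Subgroup.orderOf_mk]
  exact orderOf_eq_prime_of (μ := model) (ψA_inj e) hgv L7_pow L7_ne

theorem exists_g13 : ∃ g : ↥(Γ e), ψA e g.1 = toMat L13 ∧ orderOf g = 13 := by
  obtain ⟨g, hg, hgv⟩ : Real model (ψA e) (Γ e) L13 :=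
    (Real.evalW Ggen wo13 (fun k _ => Ggen_real e k)).of_eq (Nat.eq_of_beq_eq_true ok_L13)
  have : Fact (Nat.Prime 13) := ⟨by norm_num⟩
  refine ⟨⟨g, hg⟩, hgv, ?_⟩
  rw [Subgroup.orderOf_mk]
  exact orderOf_eq_prime_of (μ := model) (ψA_inj e) hgv L13_pow L13_ne

/-! ### enumerated subgroups -/

/-- the subgroup of a table, inside the group -/
def tabGrp (D : LData) : Subgroup ↥(Γ e) := (genGrp model (ψA e) D.gen D.r).subgroupOf (Γ e)

theorem card_tabGrp {D : LData} (ok : LOK model D)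
    (hgen : ∀ l < D.r, Real model (ψA e) (Γ e) (D.gen l)) : Nat.card (tabGrp e D) = D.N := by
  have hle : genGrp model (ψA e) D.gen D.r ≤ Γ e := genGrp_le (ψA_inj e) (Γ e) hgen
  have hex : ∀ l < D.r, ∃ g, ψA e g = model.toM (D.gen l) := by
    intro l hl
    obtain ⟨g, _, hg⟩ := hgen l hl
    exact ⟨g, hg⟩
  rw [← card_L ok (ψA_inj e) hex]
  exact Nat.card_congr (Subgroup.subgroupOfEquivOfLe hle).toEquiv

theorem mem_tabGrp {D : LData} (ok : LOK model D) (y : ↥(Γ e)) (hy : y ∈ tabGrp e D) :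
    ∃ j < D.N, ψA e y.1 = toMat (D.T j) :=
  L_sub ok _ (Subgroup.mem_subgroupOf.mp hy)

/-- the common part of the five exclusions -/
theorem no_mul_aux (r s a : ℕ) [Fact r.Prime] [hs : Fact s.Prime] (hr2 : ¬ r ^ 2 ∣ 4245696)
    (hsa : ¬ s ^ (a + 1) ∣ 4245696) (g : ↥(Γ e)) (hg : orderOf g = r) (D : LData)
    (ok : LOK model D) (hgen : ∀ l < D.r, Real model (ψA e) (Γ e) (D.gen l)) (hN : D.N = s ^ a)
    (hkey : ∀ j, j + 1 < D.N → ∀ y : ↥(Γ e), ψA e y.1 = toMat (D.T (Nat.succ j)) →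
      orderOf y = s → ∃ (n : ℕ) (π : ↥(Γ e) →* Equiv.Perm (Fin n)),
        (∀ i, π g i ≠ i) ∧ ¬ r ∣ (Finset.univ.filter (fun i => π y i = i)).card) :
    ¬ ∃ z : ↥(Γ e), orderOf z = r * s := by
  obtain ⟨Q, hQ⟩ := exists_sylow_eq s a (tabGrp e D) ((card_tabGrp e ok hgen).trans hN)
    (by rw [card_Γ e]; exact hsa)
  apply no_order_mul r s (by rw [card_Γ e]; exact hr2) g hg Q
  intro y hy hys
  rw [hQ] at hy
  obtain ⟨j, hj, hjv⟩ := mem_tabGrp e ok y hy
  rcases Nat.eq_zero_or_pos j with h0 | h0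
  · exfalso
    have hy1 : y = 1 := by
      apply Subtype.ext
      apply ψA_inj e
      rw [hjv, h0, ok.t0, Subgroup.coe_one, map_one]
      exact toMat_oneP
    rw [hy1, orderOf_one] at hys
    exact hs.out.one_lt.ne hys
  · obtain ⟨j', rfl⟩ : ∃ j', j = Nat.succ j' := ⟨j - 1, by omega⟩
    exact hkey j' hj y hjv hys

end field

end Cfsg.Agent.Lib.Helper60.G23
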