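import Cfsg.Agent.Lib.Helper60.G23.Main2

/-!
`G₂(3)`: no elements of orders 14, 21, 26, 39, 91; the prime divisors of the order; the products
of two distinct primes that are element orders.
-/

set_option autoImplicit false

namespace Cfsg.Agent.Lib.Helper60.G23

open Cfsg Cfsg.Lie Cfsg.Agent.Lib.Helper60.Cert
open Cfsg.Agent.Lib.Helper60.G2 (Mat toMat model mulP oneP toMat_oneP)

theorem ndvd_of_nbeq {a m : ℕ} (h : (!Nat.beq (Nat.mod a m) 0) = true) : ¬ m ∣ a := by
  intro hd
  have h0 : Nat.mod a m = 0 := Nat.mod_eq_zero_of_dvd hd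
  rw [h0] at h
  exact absurd h (by decide)

theorem okG_spec {g j : ℕ} (h : okG g j = true) : g = 1 ∨ (g = 13 ∧ fb3 j = true) := by
  unfold okG at h
  split at h
  · exact Or.inl rfl
  · exact Or.inr ⟨rfl, h⟩
  · exact absurd h (by decide)

theorem prime_of_dvd_card {p : ℕ} (hp : p.Prime) (h : p ∣ 4245696) :
    p = 2 ∨ p = 3 ∨ p = 7 ∨ p = 13 := by
  have e : 4245696 = 2 ^ 6 * 3 ^ 6 * 7 * 13 := by norm_num
  rw [e] at h
  rcases (Nat.Prime.dvd_mul hp).mp h with h | h
  · rcases (Nat.Prime.dvd_mul hp).mp h with h | h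
    · rcases (Nat.Prime.dvd_mul hp).mp h with h | h
      · left
        exact (Nat.prime_dvd_prime_iff_eq hp Nat.prime_two).mp (hp.dvd_of_dvd_pow h)
      · right; left
        exact (Nat.prime_dvd_prime_iff_eq hp Nat.prime_three).mp (hp.dvd_of_dvd_pow h)
    · right; right; left
      exact (Nat.prime_dvd_prime_iff_eq hp (by norm_num)).mp h
  · right; right; right
    exact (Nat.prime_dvd_prime_iff_eq hp (by norm_num)).mp h

section field

variable {F : Type*} [Field F] [Fintype F] (e : ZMod 3 ≃+* F)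

theorem el_real {E si sj sk : ℕ → ℕ} {l : ℕ} (h : chkEl C1T C2T TT E si sj sk l = true) :
    Real model (ψA e) (Γ e) (E l) := by
  simp only [chkEl, Bool.and_eq_true, Nat.blt_eq] at h
  obtain ⟨⟨⟨h1, h2⟩, h3⟩, h4⟩ := h
  exact ((C1_real e _ h2).mul (((C2_real e _ h3).mono (P1_le e)).mul
    ((TT_real e _ h4).mono ((Lt_le_P1 e).trans (P1_le e))))).of_eq (Nat.eq_of_beq_eq_true h1)

theorem S_real : ∀ l < SL.r, Real model (ψA e) (Γ e) (SL.gen l) := by
  intro l hl
  have hl' : l < 3 := hl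
  exact el_real e (ok_sift l hl')

theorem U_real : ∀ l < UL.r, Real model (ψA e) (Γ e) (UL.gen l) := by
  intro l hl
  have hl' : l < 3 := hl
  change Real model (ψA e) (Γ e) (Ugen l)
  interval_cases l
  · rw [ok_U0.1]; exact root_real e 6 (by norm_num)
  · rw [ok_U0.2.1]; exact root_real e 7 (by norm_num)
  · rw [ok_U0.2.2]; exact root_real e 8 (by norm_num)

theorem Q_real : ∀ l < QL.r, Real model (ψA e) (Γ e) (QL.gen l) := by
  intro l hl
  have hl' : l < 1 := hl
  change Real model (ψA e) (Γ e) (Qgen l)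
  interval_cases l
  rw [ok_Q0]
  exact (Real.evalW Ggen wo7 (fun k _ => Ggen_real e k)).of_eq (Nat.eq_of_beq_eq_true ok_L7)

/-- no element of order `2 r` for `r = 7, 13` -/
theorem noS2 (r : ℕ) [Fact r.Prime] (hr91 : r ∣ 91) (hr2 : ¬ r ^ 2 ∣ 4245696) (g : ↥(Γ e))
    (hg : orderOf g = r) (x : ℕ) (hx : ψA e g.1 = toMat x) (hfree : cntFix x ptA 728 = 0) :
    ¬ ∃ z : ↥(Γ e), orderOf z = r * 2 := by
  refine no_mul_aux e r 2 6 hr2 (by norm_num) g hg SL SLok (S_real e) rfl ?_
  intro j hj y hyv hys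
  have hj' : j < 63 := by
    have h64 : SL.N = 64 := rfl
    omega
  have hc := ok_S2 j hj'
  have hsq : Nat.beq (model.key (mulP (ST (Nat.succ j)) (ST (Nat.succ j)))) (model.key oneP)
      = true := by
    have h1 : model.toM (model.mulP (ST (Nat.succ j)) (ST (Nat.succ j))) = model.toM oneP := by
      rw [model.toM_mul]
      have h2 : y * y = 1 := by
        rw [← sq, ← hys]
        exact pow_orderOf_eq_one y
      have h3 := congrArg (fun t : ↥(Γ e) => ψA e t.1) h2
      simp only [Subgroup.coe_mul, map_mul, Subgroup.coe_one, map_one] at h3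
      rw [hyv] at h3
      exact h3.trans toMat_oneP.symm
    have h4 := model.key_eq _ _ h1
    rw [show model.mulP = mulP from rfl] at h4
    rw [h4]
    exact Nat.beq_refl _
  unfold chkS2 at hc
  rw [hsq, cond_true] at hc
  have hgcd := Nat.eq_of_beq_eq_true hc
  refine ⟨728, vperm okA e, vperm_free okA e g x hx hfree, ?_⟩
  rw [vperm_card okA e y _ hyv]
  intro h7
  have h8 : r ∣ Nat.gcd (cntFix (ST (Nat.succ j)) ptA 728) 91 := Nat.dvd_gcd h7 hr91
  rw [hgcd] at h8
  exact (Fact.out : r.Prime).one_lt.ne' (Nat.dvd_one.mp h8)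

theorem no14 : ¬ ∃ z : ↥(Γ e), orderOf z = 7 * 2 := by
  obtain ⟨g, hgv, hg⟩ := exists_g7 e
  have : Fact (Nat.Prime 7) := ⟨by norm_num⟩
  exact noS2 e 7 (by norm_num) (by norm_num) g hg L7 hgv free7A

theorem no26 : ¬ ∃ z : ↥(Γ e), orderOf z = 13 * 2 := by
  obtain ⟨g, hgv, hg⟩ := exists_g13 e
  have : Fact (Nat.Prime 13) := ⟨by norm_num⟩
  exact noS2 e 13 (by norm_num) (by norm_num) g hg L13 hgv free13A

theorem no21 : ¬ ∃ z : ↥(Γ e), orderOf z = 7 * 3 := by
  obtain ⟨g, hgv, hg⟩ := exists_g7 e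
  have : Fact (Nat.Prime 7) := ⟨by norm_num⟩
  refine no_mul_aux e 7 3 6 (by norm_num) (by norm_num) g hg UL ULok (U_real e) rfl ?_
  intro j hj y hyv hys
  have hj' : j < 728 := by
    have h729 : UL.N = 729 := rfl
    omega
  have hc := ok_S3 j hj'
  unfold chkS3 at hc
  refine ⟨728, vperm okA e, vperm_free okA e g L7 hgv free7A, ?_⟩
  rw [vperm_card okA e y _ hyv]
  intro h7
  have h8 : 7 ∣ Nat.gcd (cntFix (UT (Nat.succ j)) ptA 728) 91 := Nat.dvd_gcd h7 (by norm_num)
  rcases okG_spec hc with h1 | ⟨h1, _⟩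
  · rw [h1] at h8
    exact absurd (Nat.le_of_dvd one_pos h8) (by norm_num)
  · rw [h1] at h8
    exact absurd h8 (by norm_num)

theorem no39 : ¬ ∃ z : ↥(Γ e), orderOf z = 13 * 3 := by
  obtain ⟨g, hgv, hg⟩ := exists_g13 e
  have : Fact (Nat.Prime 13) := ⟨by norm_num⟩
  refine no_mul_aux e 13 3 6 (by norm_num) (by norm_num) g hg UL ULok (U_real e) rfl ?_
  intro j hj y hyv hys
  have hj' : j < 728 := by
    have h729 : UL.N = 729 := rfl
    omega
  have hc := ok_S3 j hj'
  unfold chkS3 at hc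
  rcases okG_spec hc with h1 | ⟨_, h2⟩
  · refine ⟨728, vperm okA e, vperm_free okA e g L13 hgv free13A, ?_⟩
    rw [vperm_card okA e y _ hyv]
    intro h7
    have h8 : 13 ∣ Nat.gcd (cntFix (UT (Nat.succ j)) ptA 728) 91 := Nat.dvd_gcd h7 (by norm_num)
    rw [h1] at h8
    exact absurd (Nat.le_of_dvd one_pos h8) (by norm_num)
  · unfold fb3 at h2
    rcases Bool.or_eq_true_iff.mp h2 with h3 | h3
    · refine ⟨728, vperm okB e, vperm_free okB e g L13 hgv free13B, ?_⟩
      rw [vperm_card okB e y _ hyv]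
      exact ndvd_of_nbeq h3
    · refine ⟨5824, vperm okC e, vperm_free okC e g L13 hgv free13C, ?_⟩
      rw [vperm_card okC e y _ hyv]
      exact ndvd_of_nbeq h3

theorem no91 : ¬ ∃ z : ↥(Γ e), orderOf z = 13 * 7 := by
  obtain ⟨g, hgv, hg⟩ := exists_g13 e
  have : Fact (Nat.Prime 13) := ⟨by norm_num⟩
  have : Fact (Nat.Prime 7) := ⟨by norm_num⟩
  refine no_mul_aux e 13 7 1 (by norm_num) (by norm_num) g hg QL QLok (Q_real e) rfl ?_
  intro j hj y hyv hys
  have hj' : j < 6 := by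
    have h7 : QL.N = 7 := rfl
    omega
  have hc := ok_S7 j hj'
  unfold chkS7 at hc
  refine ⟨702, vperm okD e, vperm_free okD e g L13 hgv free13D, ?_⟩
  rw [vperm_card okD e y _ hyv]
  exact ndvd_of_nbeq hc

end field

/-- the order of `G₂(3)`, an element of order 6, and the excluded orders -/
theorem summary {F : Type*} [Field F] [Fintype F] (hF : Fintype.card F = 3) :
    Nat.card ↥(chevG2.group F) = 4245696 ∧ (∃ x : ↥(chevG2.group F), orderOf x = 6) ∧
      (∀ x : ↥(chevG2.group F), orderOf x ≠ 14 ∧ orderOf x ≠ 21 ∧ orderOf x ≠ 26 ∧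
        orderOf x ≠ 39 ∧ orderOf x ≠ 91) := by
  have e : ZMod 3 ≃+* F := ZMod.ringEquivOfPrime F Nat.prime_three hF
  rw [group_eq_Γ e]
  refine ⟨card_Γ e, order6 e, fun x => ⟨?_, ?_, ?_, ?_, ?_⟩⟩
  · intro h; exact no14 e ⟨x, h⟩
  · intro h; exact no21 e ⟨x, h⟩
  · intro h; exact no26 e ⟨x, h⟩
  · intro h; exact no39 e ⟨x, h⟩
  · intro h; exact no91 e ⟨x, h⟩

/-- the prime divisors of the order of `G₂(3)` -/
theorem prime_dvd_card {F : Type*} [Field F] [Fintype F] (hF : Fintype.card F = 3) (p : ℕ)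
    (hp : p.Prime) : p ∣ Nat.card ↥(chevG2.group F) ↔ p = 2 ∨ p = 3 ∨ p = 7 ∨ p = 13 := by
  rw [(summary hF).1]
  constructor
  · exact prime_of_dvd_card hp
  · rintro (rfl | rfl | rfl | rfl) <;> norm_num

/-- the only product of two distinct primes that is an element order of `G₂(3)` is 6 -/
theorem pq_order {F : Type*} [Field F] [Fintype F] (hF : Fintype.card F = 3)
    (x : ↥(chevG2.group F)) (r s : ℕ) (hr : r.Prime) (hs : s.Prime) (hrs : r ≠ s)
    (hx : orderOf x = r * s) : r * s = 6 := by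
  obtain ⟨hcard, _, hno⟩ := summary hF
  obtain ⟨n14, n21, n26, n39, n91⟩ := hno x
  have hfin : Finite ↥(chevG2.group F) := Nat.finite_of_card_ne_zero (by rw [hcard]; norm_num)
  have hd : r * s ∣ 4245696 := by
    rw [← hcard, ← hx]
    exact orderOf_dvd_natCard x
  have h1 := prime_of_dvd_card hr ((dvd_mul_right r s).trans hd)
  have h2 := prime_of_dvd_card hs ((dvd_mul_left s r).trans hd)
  rcases h1 with rfl | rfl | rfl | rfl <;> rcases h2 with rfl | rfl | rfl | rfl <;>
    first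
    | exact absurd rfl hrs
    | rfl
    | exact absurd hx n14
    | exact absurd hx n21
    | exact absurd hx n26
    | exact absurd hx n39
    | exact absurd hx n91

end Cfsg.Agent.Lib.Helper60.G23
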