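import Mathlib
import Cfsg.Agent.Lib.Helper5.PSL2
import Cfsg.Agent.Lib.Helper61.SL2Small

/-!
`PSL₂(13)`: the prime divisors of its order, and the products of two distinct primes that are
orders of elements (only `6`).
-/

set_option autoImplicit false

namespace Cfsg.Agent.Lib.Helper60.G23

universe u

/-- `A ^ n = a_n • A + b_n • 1` when `A * A = t • A - 1`: the coefficients `(a_n, b_n)`. -/
def lseq {R : Type*} [CommRing R] (t : R) : ℕ → R × R
  | 0 => (0, 1)
  | n + 1 => (t * (lseq t n).1 + (lseq t n).2, -(lseq t n).1)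

theorem lseq_map {R S : Type*} [CommRing R] [CommRing S] (f : R →+* S) (t : R) (n : ℕ) :
    lseq (f t) n = (f (lseq t n).1, f (lseq t n).2) := by
  induction n with
  | zero => simp [lseq]
  | succ n ih => simp [lseq, ih]

theorem lseq_table : ∀ k : ZMod 13,
    ((lseq k 6).1 = 0 ∧ ((lseq k 6).2 = 1 ∨ (lseq k 6).2 = -1)) ∨
    ((lseq k 7).1 = 0 ∧ ((lseq k 7).2 = 1 ∨ (lseq k 7).2 = -1)) ∨
    ((lseq k 13).1 = 0 ∧ ((lseq k 13).2 = 1 ∨ (lseq k 13).2 = -1)) := by
  decide

theorem lseq_nine : (lseq (9 : ZMod 13) 6).1 = 0 ∧ (lseq (9 : ZMod 13) 6).2 = -1 ∧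
    (lseq (9 : ZMod 13) 2).1 ≠ 0 ∧ (lseq (9 : ZMod 13) 3).1 ≠ 0 := by
  decide

section PSL13

variable {E : Type u} [Field E]

local notation "SL2" => Matrix.SpecialLinearGroup (Fin 2) E
local notation "M2" => Matrix (Fin 2) (Fin 2) E
local notation "PSL2" => Matrix.ProjectiveSpecialLinearGroup (Fin 2) E

theorem pow_eq_lseq (A : M2) (t : E) (hCH : A * A = t • A - 1) (n : ℕ) :
    A ^ n = (lseq t n).1 • A + (lseq t n).2 • (1 : M2) := by
  induction n with
  | zero => simp [lseq]
  | succ n ih =>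
    rw [pow_succ, ih, add_mul, smul_mul_assoc, hCH, smul_mul_assoc, one_mul]
    simp only [lseq]
    module

/-- the `n`-th power in `PSL₂` is trivial when `a_n = 0` and `b_n = ± 1` -/
theorem psl_pow_of_lseq (e : ZMod 13 →+* E) (g : SL2) (k : ZMod 13)
    (hk : Matrix.trace (g : M2) = e k) (n : ℕ)
    (h : (lseq k n).1 = 0 ∧ ((lseq k n).2 = 1 ∨ (lseq k n).2 = -1)) :
    (QuotientGroup.mk g : PSL2) ^ n = 1 := by
  have hCH := Cfsg.Agent.Lib.Helper61.sl2_cayley g
  have hp := pow_eq_lseq (g : M2) _ hCH n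
  rw [hk, lseq_map, h.1, map_zero, zero_smul, zero_add] at hp
  apply Cfsg.Agent.Lib.Helper61.psl2_pow_eq_one
  rcases h.2 with h2 | h2
  · left
    rw [hp, h2, map_one, one_smul]
  · right
    rw [hp, h2, map_neg, map_one, neg_smul, one_smul]

/-- the `n`-th power in `PSL₂` is not trivial when `a_n ≠ 0` and the matrix is not diagonal -/
theorem psl_pow_ne_of_lseq (e : ZMod 13 →+* E) (he : Function.Injective e) (g : SL2)
    (k : ZMod 13) (hk : Matrix.trace (g : M2) = e k) (n : ℕ)
    (h : (lseq k n).1 ≠ 0) (hg : g 0 1 ≠ 0) :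
    (QuotientGroup.mk g : PSL2) ^ n ≠ 1 := by
  have hCH := Cfsg.Agent.Lib.Helper61.sl2_cayley g
  have hp := pow_eq_lseq (g : M2) _ hCH n
  rw [hk, lseq_map] at hp
  rw [← QuotientGroup.mk_pow]
  apply Cfsg.Agent.Lib.Helper61.psl2_ne_one
  have h1 : (g ^ n) 0 1 = e (lseq k n).1 * g 0 1 := by
    have := congrFun (congrFun hp 0) 1
    rw [← Matrix.SpecialLinearGroup.coe_pow] at this
    simpa using this
  rw [h1]
  exact mul_ne_zero ((map_ne_zero_iff e he).mpr h) hg

variable [Fintype E]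

theorem thirteen_eq_zero (hE : Fintype.card E = 13) : (13 : E) = 0 := by
  have := Nat.cast_card_eq_zero E
  rw [hE] at this
  exact_mod_cast this

/-- Every element of `PSL₂(13)` has order dividing 6, 7 or 13. -/
theorem psl13_pow (hE : Fintype.card E = 13) (x : PSL2) :
    x ^ 6 = 1 ∨ x ^ 7 = 1 ∨ x ^ 13 = 1 := by
  obtain ⟨g, rfl⟩ := QuotientGroup.mk_surjective x
  let e : ZMod 13 ≃+* E := ZMod.ringEquivOfPrime E (by norm_num) hE
  obtain ⟨k, hk⟩ := e.surjective (Matrix.trace (g : M2))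
  rcases lseq_table k with h | h | h
  · exact Or.inl (psl_pow_of_lseq (e : ZMod 13 →+* E) g k hk.symm 6 h)
  · exact Or.inr (Or.inl (psl_pow_of_lseq (e : ZMod 13 →+* E) g k hk.symm 7 h))
  · exact Or.inr (Or.inr (psl_pow_of_lseq (e : ZMod 13 →+* E) g k hk.symm 13 h))

/-- `PSL₂(13)` has an element of order 6. -/
theorem psl13_six (hE : Fintype.card E = 13) : ∃ x : PSL2, orderOf x = 6 := by
  have h13 := thirteen_eq_zero hE
  let e : ZMod 13 ≃+* E := ZMod.ringEquivOfPrime E (by norm_num) hE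
  let g : SL2 := ⟨!![2, 1; 0, 7], by simp [Matrix.det_fin_two]; linear_combination h13⟩
  have hk : Matrix.trace (g : M2) = (e : ZMod 13 →+* E) 9 := by
    rw [map_ofNat]
    simp [g, Matrix.trace_fin_two]
    norm_num
  have hg : g 0 1 ≠ 0 := by simp [g]
  obtain ⟨h6a, h6b, h2, h3⟩ := lseq_nine
  refine ⟨QuotientGroup.mk g, ?_⟩
  apply orderOf_eq_of_pow_and_pow_div_prime (by norm_num)
  · exact psl_pow_of_lseq (e : ZMod 13 →+* E) g 9 hk 6 ⟨h6a, Or.inr h6b⟩
  · intro p hp hpd
    have hp6 : p ≤ 6 := Nat.le_of_dvd (by norm_num) hpd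
    interval_cases p
    · exact absurd hpd (by norm_num)
    · exact absurd hp (by norm_num)
    · exact psl_pow_ne_of_lseq (e : ZMod 13 →+* E) e.injective g 9 hk 3 h3 hg
    · exact psl_pow_ne_of_lseq (e : ZMod 13 →+* E) e.injective g 9 hk 2 h2 hg
    · exact absurd hpd (by norm_num)
    · exact absurd hpd (by norm_num)
    · exact absurd hp (by norm_num)

/-- the only product of two distinct primes that is the order of an element of `PSL₂(13)` -/
theorem psl13_pq (hE : Fintype.card E = 13) (x : PSL2) (r s : ℕ) (hr : r.Prime) (hs : s.Prime)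
    (hrs : r ≠ s) (hx : orderOf x = r * s) : r * s = 6 := by
  rcases psl13_pow hE x with h | h | h
  · have hd := orderOf_dvd_of_pow_eq_one h
    rw [hx] at hd
    have hr2 := hr.two_le
    have hs2 := hs.two_le
    have hle : r * s ≤ 6 := Nat.le_of_dvd (by norm_num) hd
    have hr3 : r ≤ 3 := by nlinarith
    have hs3 : s ≤ 3 := by nlinarith
    interval_cases r <;> interval_cases s <;> first | rfl | exact absurd rfl hrs
  · have hd := orderOf_dvd_of_pow_eq_one h
    rw [hx] at hd
    exact absurd (by simpa using hd)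
      (Cfsg.Agent.Lib.Helper61.not_mul_dvd_prime_pow (k := 1) hr hs (by norm_num : Nat.Prime 7) hrs)
  · have hd := orderOf_dvd_of_pow_eq_one h
    rw [hx] at hd
    exact absurd (by simpa using hd)
      (Cfsg.Agent.Lib.Helper61.not_mul_dvd_prime_pow (k := 1) hr hs (by norm_num : Nat.Prime 13) hrs)

theorem card_psl13 (hE : Fintype.card E = 13) : Nat.card PSL2 = 1092 := by
  have h1 := Cfsg.Agent.Lib.Helper5.card_PSL_mul_card_center (Fin 2) E
  have h2 : (2 : E) ≠ 0 :=
    Cfsg.Agent.Lib.Helper5.two_ne_zero_of_odd_card (by rw [hE]; decide)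
  rw [Cfsg.Agent.Lib.Helper5.card_center_SL2_of_two_ne_zero h2,
    Cfsg.Agent.Lib.Helper5.card_SL2, hE] at h1
  omega

/-- The prime divisors of the order of `PSL₂(13)` are 2, 3, 7 and 13. -/
theorem psl13_prime_dvd (hE : Fintype.card E = 13) (p : ℕ) (hp : p.Prime) :
    p ∣ Nat.card PSL2 ↔ p = 2 ∨ p = 3 ∨ p = 7 ∨ p = 13 := by
  rw [card_psl13 hE]
  constructor
  · intro h
    have e : 1092 = 2 ^ 2 * 3 * 7 * 13 := by norm_num
    rw [e] at h
    rcases (Nat.Prime.dvd_mul hp).mp h with h | h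
    · rcases (Nat.Prime.dvd_mul hp).mp h with h | h
      · rcases (Nat.Prime.dvd_mul hp).mp h with h | h
        · left
          exact (Nat.prime_dvd_prime_iff_eq hp Nat.prime_two).mp (hp.dvd_of_dvd_pow h)
        · right; left
          exact (Nat.prime_dvd_prime_iff_eq hp Nat.prime_three).mp h
      · right; right; left
        exact (Nat.prime_dvd_prime_iff_eq hp (by norm_num)).mp h
    · right; right; right
      exact (Nat.prime_dvd_prime_iff_eq hp (by norm_num)).mp h
  · rintro (rfl | rfl | rfl | rfl) <;> norm_num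

end PSL13

end Cfsg.Agent.Lib.Helper60.G23
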